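import Cfsg.Agent.Class.Char2.Main

/-!
# Lower bounds for the class numbers of orthogonal groups in characteristic two
-/

set_option autoImplicit false

namespace Cfsg.Agent.Class.Char2

open Module Polynomial Finset
open Cfsg.Agent.KSG (elemDiv mdiv Sim)
open Cfsg.Agent.Class.Wall

variable {F V V' : Type*} [Field F] [AddCommGroup V] [Module F V] [AddCommGroup V'] [Module F V']
  {B : LinearMap.BilinForm F V} {Q : V → F} {g : End F V}
  {B' : LinearMap.BilinForm F V'} {Q' : V' → F} {g' : End F V'}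

theorem sum_sum_symm (h2 : (2 : F) = 0) {ι : Type*} [Fintype ι] (f : ι → ι → F)
    (hf : ∀ i j, f i j = f j i) : ∑ i, ∑ j, f i j = ∑ i, f i i := by
  classical
  rw [← sum_product', ← diag_union_offDiag, sum_union (disjoint_diag_offDiag _), sum_diag,
    sum_involution (s := offDiag univ) (fun x _ => x.swap) (fun x _ => show f x.1 x.2 + f x.2 x.1 = 0 by
      linear_combination hf x.1 x.2 + f x.2 x.1 * h2)
      (fun x hx _ e => (mem_offDiag.1 hx).2.2 (congrArg Prod.snd e))
      (fun x hx => mem_offDiag.2 ⟨mem_univ _, mem_univ _, (mem_offDiag.1 hx).2.2.symm⟩)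
      fun _ _ => rfl, add_zero]

theorem sq_eq_trace [FiniteDimensional F V] (h2 : (2 : F) = 0) (hB : B.Nondegenerate)
    (hS : ∀ x y, B x y = B y x) {T : End F V} (hT : ∀ x y, B (T x) y = B x (T y)) {a b : V}
    (ha : ∀ x, B a x ^ 2 = B x x) (hb : ∀ x, B b x ^ 2 = B (T x) x) :
    B a b ^ 2 = LinearMap.trace F V T := by
  have := Symm2.charP_two h2
  let e := finBasis F V
  have h1 : ∀ x y, B x y = ∑ i, B x (e i) * B y (B.dualBasis hB e i) := fun x y => by
    conv_lhs => rw [← (B.dualBasis hB e).sum_repr x]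
    simp [LinearMap.BilinForm.dualBasis_repr_apply, hS y]
  rw [LinearMap.trace_eq_matrix_trace F (B.dualBasis hB e), h1, CharTwo.sum_sq]
  simp only [mul_pow, ha, hb, Matrix.trace, Matrix.diag_apply, LinearMap.toMatrix_apply,
    LinearMap.BilinForm.dualBasis_repr_apply]
  rw [← sum_sum_symm h2 (fun i j => B (e i) (e j) * B (T (B.dualBasis hB e i)) (B.dualBasis hB e j))
    fun i j => by rw [hS, hT, hS (B.dualBasis hB e i)]]
  exact sum_congr rfl fun i _ => by rw [← h1, hS]

theorem exists_frobenius {k : F[X]} (hk : k.Monic) :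
    ∃ l : AdjoinRoot k →ₗ[F] F, ∀ x, (∀ y, l (x * y) = 0) → x = 0 := by
  refine ⟨lcoeff F (k.natDegree - 1) ∘ₗ AdjoinRoot.modByMonicHom hk, fun x hx => by_contra fun h => ?_⟩
  obtain ⟨p, rfl⟩ := AdjoinRoot.mk_surjective x
  rw [← AdjoinRoot.mk_leftInverse hk (AdjoinRoot.mk k p), AdjoinRoot.modByMonicHom_mk] at hx h
  have h1 : p %ₘ k ≠ 0 := fun e => h (by rw [e, map_zero])
  have h3 := natDegree_lt_natDegree h1 (degree_modByMonic_lt p hk)
  generalize p %ₘ k = r at *
  have h4 := hx (AdjoinRoot.mk k (X ^ (k.natDegree - 1 - r.natDegree)))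
  have h5 : (r * X ^ (k.natDegree - 1 - r.natDegree)).natDegree = k.natDegree - 1 := by
    rw [natDegree_mul_X_pow _ h1]; omega
  rw [← map_mul, LinearMap.comp_apply, AdjoinRoot.modByMonicHom_mk, (modByMonic_eq_self_iff hk).2
    (degree_lt_degree (by omega)), lcoeff_apply] at h4
  exact h1 (leadingCoeff_eq_zero.1 ((leadingCoeff_mul_X_pow ..).symm.trans ((congrArg _ h5).trans h4)))

/-- `k` is the minimal polynomial of `g / (g - 1) ^ 2`. -/
def Ann (g : End F V) (k : F[X]) : Prop :=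
  IsUnit (g - 1) ∧ ∃ T : End F V, T * (g - 1) ^ 2 = g ∧ ∀ p, aeval T p = 0 ↔ k ∣ p

theorem Ann.dvd {k k' : F[X]} (h : Ann g k) (h' : Ann g' k') (hs : Sim g g') : k' ∣ k := by
  obtain ⟨h1, T, h2, h3⟩ := h
  obtain ⟨-, T', h2', h3'⟩ := h'
  obtain ⟨e, he⟩ := hs
  refine (h3' k).1 (LinearMap.ext fun v => ?_)
  obtain ⟨v, rfl⟩ := e.surjective v
  refine (KSG.aeval_comm_of_comm (f := T) e.toLinearMap (fun v => ?_) k v).symm.trans
    (by simp [(h3 k).2 dvd_rfl])
  obtain ⟨v, rfl⟩ := ((End.isUnit_iff _).1 (h1.pow 2)).2 v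
  rw [← End.mul_apply, h2, LinearEquiv.coe_coe, he, ← h2']
  simp [sq, he]

variable [Finite F]

theorem exists_ann (h2 : (2 : F) = 0) {k : F[X]} (hk : k.Monic) (h0 : k.coeff 0 ≠ 0)
    (hd : k.natDegree ≠ 0) : ∃ (B : LinearMap.BilinForm F (AdjoinRoot k × AdjoinRoot k)) (Q : _) (g : _),
      IsOS B Q ∧ Pres B Q g ∧ Ann g k ∧ 0 < chi k.nextCoeff * gs Q (⊤ : Submodule F _) := by
  have := hk.finite_adjoinRoot
  have := AdjoinRoot.nontrivial k (degree_eq_natDegree hk.ne_zero ▸ Nat.cast_ne_zero.2 hd)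
  obtain ⟨l, hl⟩ := exists_frobenius hk
  have k2 : (2 : AdjoinRoot k) = 0 := by rw [← map_ofNat (algebraMap F _), h2, map_zero]
  obtain ⟨σ, hσ⟩ : ∃ σ, AdjoinRoot.root k * σ = 1 :=
    ⟨AdjoinRoot.mk k (-C (k.coeff 0)⁻¹ * k.divX), by
      rw [← AdjoinRoot.mk_X, ← map_mul, ← map_one (AdjoinRoot.mk k), AdjoinRoot.mk_eq_mk]
      refine ⟨-C (k.coeff 0)⁻¹, ?_⟩
      have : C (k.coeff 0) * C (k.coeff 0)⁻¹ = 1 := by rw [← C_mul, mul_inv_cancel₀ h0, C_1]
      linear_combination -C (k.coeff 0)⁻¹ * X_mul_divX_add k + this⟩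
  have h3 := (AdjoinRoot.powerBasis hk.ne_zero).trace_gen_eq_nextCoeff_minpoly
  rw [AdjoinRoot.minpoly_powerBasis_gen_of_monic hk, AdjoinRoot.powerBasis_gen] at h3
  have h4 : ∀ p, aeval (AdjoinRoot.root k) p = 0 ↔ k ∣ p := fun p => by
    rw [AdjoinRoot.aeval_eq, AdjoinRoot.mk_eq_zero]
  generalize AdjoinRoot.root k = ρ at *
  let β : LinearMap.BilinForm F (AdjoinRoot k) := (LinearMap.mul F _).compr₂ l
  have b0 : ∀ x y, β x y = l (x * y) := fun _ _ => rfl
  have b1 : ∀ x y, β x y = β y x := fun x y => by rw [b0, b0, mul_comm]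
  have b2 : Nd (RingHom.id F) β := ⟨fun _ => rfl, hl, fun y hy => hl y fun x => (b1 y x).trans (hy x)⟩
  obtain ⟨a, ha⟩ := Symm2.exists_charVec h2 b1 hl
  obtain ⟨b, hb⟩ := Symm2.exists_charVec (χ := β.compLeft (LinearMap.mul F _ ρ)) h2
    (fun x y => congrArg l (show ρ * x * y = ρ * y * x by ring)) fun x hx => by
      linear_combination σ * hl (ρ * x) hx - x * hσ
  have h5 := sq_eq_trace h2 ⟨b2.left, b2.right⟩ b1 (T := LinearMap.mul F _ ρ)
    (fun x y => congrArg l (show ρ * x * y = x * (ρ * y) by ring)) ha hb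
  have h6 := fType_orth.isTF_hypB b2
  have b3 : ∀ x y, hypB 1 b2 x y = l (x.1 * y.2 + y.1 * x.2) := fun x y => by simp [hypB_apply, b0]
  let m := Algebra.lmul F (AdjoinRoot k)
  let g := ((m (1 + σ)).coprod (m 1)).prod ((m σ).coprod (m 1))
  have g0 : ∀ v, g v = ((1 + σ) * v.1 + v.2, σ * v.1 + v.2) := fun v => by simp [g, m, add_mul]
  refine ⟨hypB 1 b2, fun v => l (v.1 * v.2 + v.1 * v.1 + ρ * v.2 * v.2), g, ⟨h6.toHerm, fun x y => ?_,
    fun c x => ?_, fun x => ⟨_, rfl, ?_⟩⟩, ⟨fun x y => ?_, fun x => congrArg l ?_⟩, ⟨?_, (m ρ).prodMap (m ρ),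
      LinearMap.ext fun v => Prod.ext ?_ ?_, fun p => ?_⟩, ?_⟩
  · rw [AddMonoidHom.id_apply, b3, ← map_add, ← map_add]
    refine congrArg l ?_
    simp only [Prod.fst_add, Prod.snd_add]
    linear_combination (x.1 * y.1 + ρ * x.2 * y.2) * k2
  · simp only [Prod.smul_fst, Prod.smul_snd, smul_mul_assoc, mul_smul_comm, ← smul_add, map_smul,
      smul_eq_mul, RingHom.id_apply, mul_assoc]
  · rw [b3, map_add l (x.1 * x.2) (x.1 * x.2), RingHom.id_apply, one_mul, ← two_mul, ← two_mul, h2,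
      zero_mul, zero_mul]
  · rw [b3, b3, g0, g0]
    refine congrArg l ?_
    linear_combination (σ * (1 + σ) * x.1 * y.1 + σ * x.1 * y.2 + σ * x.2 * y.1 + x.2 * y.2) * k2
  · rw [g0]
    linear_combination (σ * x.1 * x.1) * hσ + (2 * σ * x.1 * x.1 + σ * σ * x.1 * x.1 + x.1 * x.2 +
      2 * σ * x.1 * x.2 + x.2 * x.2 + ρ * σ * x.1 * x.2) * k2
  · rw [LinearMap.isUnit_iff_ker_eq_bot, LinearMap.ker_eq_bot']
    intro v hv
    rw [LinearMap.sub_apply, g0, Prod.ext_iff] at hv
    simp only [End.one_apply, Prod.fst_sub, Prod.snd_sub, Prod.fst_zero, Prod.snd_zero] at hv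
    exact Prod.ext (show v.1 = 0 by linear_combination ρ * hv.2 - v.1 * hσ)
      (show v.2 = 0 by linear_combination hv.1 - hv.2)
  · simp [sq, g0, m]
    linear_combination (v.1 + σ * v.1 + v.2) * hσ
  · simp [sq, g0, m]
    linear_combination (σ * v.1 + v.2) * hσ
  · rw [aeval_prodMap, aeval_algHom_apply, ← h4]
    exact ⟨fun e => by simpa [m] using congrArg (fun f => (f (1, 0)).1) e, fun e => by simp [e]⟩
  · have h7 := gs_shift (B := hypB 1 b2) (Q := fun x => β x.1 x.2) h2 h6.add (U := ⊤) (a := (ρ * b, a)) trivial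
    have h8 := gs_pos (B := hypB 1 b2) (Q := fun x => β x.1 x.2) (U := ⊤) h2 h6.add
      (M := LinearMap.range (LinearMap.inl F _ _)) le_top
      (by rintro _ ⟨x, rfl⟩; simp) fun v _ hv => by
        rw [show v.2 = 0 from hl _ fun y => by simpa [b3, mul_comm] using hv (y, 0) ⟨y, rfl⟩]
        simp
    rw [← chi_sq h2, ← sq, b1, show β (_, a).2 (ρ * b, _).1 ^ 2 = k.nextCoeff from h5.trans (h3.trans (by
      linear_combination -k.nextCoeff * h2))] at h7
    rw [← one_mul (gs _ _), ← chi_mul_self k.nextCoeff, mul_assoc, ← h7] at h8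
    convert h8 using 4 with v
    have h9 : l (a * v.1) ^ 2 = l (v.1 * v.1) := ha v.1
    have h10 : l (ρ * b * v.2) ^ 2 = l (ρ * v.2 * v.2) := hb v.2
    simp only [b3, b0, map_add, mul_comm v.1 a]
    linear_combination -h9 - h10 - l (a * v.1) * l (ρ * b * v.2) * h2

omit [Finite F] in
theorem Ann.eq [FiniteDimensional F V] [FiniteDimensional F V'] {k k' : F[X]} {j j' : ℕ} (h : Ann g k)
    (h' : Ann g' k') (hk : k.Monic) (hk' : k'.Monic) (e : elemDiv g + Multiset.replicate j (X - C 1) =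
      elemDiv g' + Multiset.replicate j' (X - C 1)) : k = k' := by
  classical
  have h1 := congrArg (Multiset.count (X - C 1)) e
  rw [Multiset.count_add, Multiset.count_add, Multiset.count_eq_zero.2 fun e => not_isUnit_X_sub_C 1
    (isCoprime_self.1 ((KSG.isUnit_aeval_iff_elemDiv g _).1 (by simpa using h.1) _ e)),
    Multiset.count_eq_zero.2 fun e => not_isUnit_X_sub_C 1
    (isCoprime_self.1 ((KSG.isUnit_aeval_iff_elemDiv g' _).1 (by simpa using h'.1) _ e))] at h1
  obtain rfl : j = j' := by simpa using h1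
  have h3 := KSG.sim_of_elemDiv_eq (add_right_cancel e)
  exact eq_of_monic_of_associated hk hk' (associated_of_dvd_dvd (h'.dvd h h3.symm) (h.dvd h' h3))

theorem pow_le_two_mul_card_conjClasses_O (h2 : (2 : F) = 0) {ι : Type} [Fintype ι] [DecidableEq ι]
    {Q : QuadraticForm F (ι → F)} (hQ : (QuadraticMap.polarBilin Q).Nondegenerate) {q : (ι → F) → F}
    (h : ∀ v, Q v = q v) {n : ℕ} (hn : Fintype.card ι = 2 * n) (hn2 : 2 ≤ n) :
    Nat.card F ^ n ≤ 2 * Nat.card (ConjClasses (isometryGroup F q)) := by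
  classical
  obtain ⟨m, rfl⟩ := Nat.exists_eq_add_of_le' hn2
  obtain ⟨α, hα, -⟩ := exists_alpha h2
  have hQ' := isTF_of_quadratic Q hQ
  have h0 : ∀ k : F[X], k.Monic → finrank F (AdjoinRoot k × AdjoinRoot k) = 2 * k.natDegree :=
    fun k hk => by
      have := hk.finite_adjoinRoot
      rw [finrank_prod, (AdjoinRoot.powerBasis hk.ne_zero).finrank, AdjoinRoot.powerBasis_dim, two_mul]
  let R := fun k : F[X] => k.Monic ∧ ∃ (A : isometryGroup F q) (g : End F (AdjoinRoot k × AdjoinRoot k))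
    (j : ℕ) (_ : FiniteDimensional F (AdjoinRoot k × AdjoinRoot k)),
      Ann g k ∧ mdiv A.1.1 = elemDiv g + Multiset.replicate j (X - C 1)
  have h1 : ∀ k : F[X], k.Monic ∧ k.natDegree = m + 1 ∧ k.coeff 0 ≠ 0 → R k := fun k ⟨a, b, c⟩ => by
    have := a.finite_adjoinRoot
    obtain ⟨B, Q, g, k1, k2, k3, -⟩ := exists_ann h2 a c (by omega)
    obtain ⟨g', k4, k5⟩ := k1.exists_pres_of_lt hQ' (by simp [h0 k a]) (by simp [hn])
      (by simp [h0 k a, hn, b]) k2
    obtain ⟨A, hA⟩ := exists_O_of_isometric hQ h Isometric.refl k4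
    exact ⟨a, A, g, _, inferInstance, k3, hA.sim.elemDiv_eq.symm.trans k5⟩
  have h3 : ∀ k : F[X], k.Monic ∧ k.natDegree = m + 2 ∧ k.coeff 0 ≠ 0 →
      (k + C α * X ^ (m + 1)).natDegree = m + 2 ∧ (¬ R k → R (k + C α * X ^ (m + 1))) :=
    fun k ⟨a, b, c⟩ => by
      have e : (C α * X ^ (m + 1)).natDegree < k.natDegree :=
        (natDegree_C_mul_X_pow_le ..).trans_lt (by omega)
      have a' := a.add_of_left (degree_lt_degree e)
      have b' := (natDegree_add_eq_left_of_natDegree_lt e).trans b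
      refine ⟨b', fun hR => by_contra fun hR' => ?_⟩
      have := a.finite_adjoinRoot
      have := a'.finite_adjoinRoot
      obtain ⟨B, Q, g, k1, k2, k3, k4⟩ := exists_ann h2 a c (by omega)
      obtain ⟨B', Q', g', k1', k2', k3', k4'⟩ := exists_ann h2 a' (by simpa using c) (by omega)
      obtain ⟨f, -, hf⟩ := k1.isometric_of_plus_iff k1' (by rw [h0 _ a, h0 _ a', b, b'])
        (by simp [h0 k a]) (by
          have c1 := fun e => (exists_O_of_isometric hQ h (k1.isometric_of_plus_iff hQ'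
            (by simp [h0 _ a, hn, b]) (by simp [h0 _ a]) e) k2).elim fun A hA =>
              hR ⟨a, A, g, 0, inferInstance, k3, hA.sim.elemDiv_eq.symm.trans (add_zero _).symm⟩
          have c2 := fun e => (exists_O_of_isometric hQ h (k1'.isometric_of_plus_iff hQ'
            (by simp [h0 _ a', hn, b']) (by simp [h0 _ a']) e) k2').elim fun A hA =>
              hR' ⟨a', A, g', 0, inferInstance, k3', hA.sim.elemDiv_eq.symm.trans (add_zero _).symm⟩
          tauto)
      rw [← gs_congr (Q := Q) (U := ⊤) (Submodule.topEquiv.trans (f.trans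
        Submodule.topEquiv.symm)).toEquiv fun v => hf v, show nextCoeff _ = k.nextCoeff + α by
          simp [nextCoeff, b, b'], chi_add h2, hα] at k4'
      linarith
  choose A g j hg hA using fun k : {k // R k} => k.2.2
  have h4 : Function.Injective fun k => ConjClasses.mk (A k) := fun k k' e =>
    Subtype.ext ((hA k).1.eq (hA k').1 k.2.1 k'.2.1 ((hA k).2.symm.trans ((KSG.isConj_GL_iff_mdiv.1
      ((isometryGroup F q).subtype.map_isConj (ConjClasses.mk_eq_mk_iff_isConj.1 e))).trans (hA k').2)))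
  have := Finite.of_injective _ h4
  have h5 : Function.Injective (β := Bool × {k // R k}) (Sum.elim
      (fun k : {k : F[X] // k.Monic ∧ k.natDegree = m + 2 ∧ k.coeff 0 ≠ 0} =>
        if hk : R k then (true, ⟨_, hk⟩) else (false, ⟨_, (h3 _ k.2).2 hk⟩))
      fun k : Bool × {k : F[X] // k.Monic ∧ k.natDegree = m + 1 ∧ k.coeff 0 ≠ 0} =>
        (k.1, ⟨_, h1 _ k.2.2⟩)) := by
    have key : ∀ (k : {k : F[X] // k.Monic ∧ k.natDegree = m + 2 ∧ k.coeff 0 ≠ 0}) (x : Bool × {k // R k}),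
        x = (if hk : R k then (true, ⟨_, hk⟩) else (false, ⟨_, (h3 _ k.2).2 hk⟩)) →
          x.2.1.natDegree = m + 2 := fun k x e => by
      split_ifs at e <;> rw [e]
      exacts [k.2.2.1, (h3 _ k.2).1]
    rintro (k | k) (k' | k') e
    · simp only [Sum.elim_inl] at e
      split_ifs at e <;> simp_all [Subtype.ext_iff]
    · exact absurd (k'.2.2.2.1.symm.trans (key k _ e.symm)) (by omega)
    · exact absurd (k.2.2.2.1.symm.trans (key k' _ e)) (by omega)
    · simpa [Prod.ext_iff, Subtype.ext_iff] using e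
  have := Finite.of_injective _ (h5.comp Sum.inl_injective)
  have := Finite.of_injective _ (h5.comp Sum.inr_injective)
  have h6 := Nat.card_le_card_of_injective _ h4
  have h7 := Nat.card_le_card_of_injective _ h5
  have := Fintype.ofFinite F
  obtain ⟨r, hr⟩ := Nat.exists_eq_add_of_le' (show 2 ≤ _ from Finite.one_lt_card (α := F))
  rw [Nat.card_sum, Nat.card_prod, Nat.card_prod, KSG.card_monic_coeff_zero (by omega) (· ≠ 0),
    KSG.card_monic_coeff_zero (by omega) (· ≠ 0), show Nat.card {c : F // c ≠ 0} = r + 1 by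
      simpa using hr, hr] at h7
  simp only [Nat.card_eq_fintype_card (α := Bool), Fintype.card_bool, Nat.add_sub_cancel, hr,
    show m + 2 - 1 = m + 1 from rfl, pow_succ] at h7 ⊢
  nlinarith [Nat.zero_le (r * (r + 2) ^ m)]

end Cfsg.Agent.Class.Char2
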